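import Cfsg.Agent.H332.Ab.PB

/-!
# Abelian `p`-subgroups of `G₂(q)`, `q = p ^ n ≥ 3` (helper316)

`pbG2 : PBG2` : at most `q ^ 3`, and at most `q ^ 4` for `p = 3`.
-/

set_option autoImplicit false

namespace Cfsg.Agent.H316.Ab.G2Pb

open Cfsg.Lie Cfsg.Agent.ChevalleyStructure Cfsg.Agent.ChevalleyStructure.Elts
  Cfsg.Agent.ChevalleyStructure.RootVec Cfsg.Agent.ChevalleyStructure.RootVecTab
  Cfsg.Agent.ChevalleyStructure.RootSupport Cfsg.Agent.H332.Ab Cfsg.Agent.H332.Ab.Filt Cfsg.Agent.H157.Ab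
open scoped commutatorElement

universe u

section General

variable {D : ChevalleyDatum} {F : Type u} [Field F]

theorem good_of_csum (h : Checked D) {r s k : ℕ} (hr : r < D.nroots) (hs : s < D.nroots) (hne : r ≠ s)
    (hc : ∃ c ∈ D.commTerms s r, c.1 = k ∧ c.2.2.1 = 1 ∧ c.2.2.2 = 1) (h0 : ((csum D s r k : ℤ) : F) ≠ 0) :
    Good D F (mm D) (ff D (mm D) r) (ff D (mm D) s) r s k := by
  obtain ⟨c, hc1, rfl, hc2, hc3⟩ := hc
  obtain ⟨h1, -, -, h4⟩ := ff_term (m := mm D) h hc1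
  rw [hc2, hc3] at h4
  refine ⟨hr, hs, h1, rfl, rfl, by rw [h4]; push_cast; ring, hne, h0, ?_⟩
  intro r' s' hr' hs' hfr hfs _ _
  refine ⟨?_, ?_⟩
  · have e1 := ff_mm_lt_iff h hr' hr
    have e2 := ff_mm_lt_iff h hr hr'
    omega
  · have e1 := ff_mm_lt_iff h hs' hs
    have e2 := ff_mm_lt_iff h hs hs'
    omega

/-- the chain -/
def Vc (hD : InList D) (F : Type u) [Field F] (n i : ℕ) : Subgroup (GL D.Idx F) := V hD F (mm D) (lev D n i)

theorem exists_ka_ne (hD : InList D) {n : ℕ} (hn : D.nroots = 2 * n) (hn0 : 0 < n) {i : ℕ} (hi : i < n)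
    {a : GL D.Idx F} (ha : a ∈ Vc hD F n i) (ha' : a ∉ Vc hD F n (i + 1)) :
    ∃ (i0 : Fin D.rank), ka i0 ⟨D.neg (n + i), neg_lt (checked_of_mem hD) (hn ▸ (by omega : n + i < 2 * n))⟩ a ≠ 0 := by
  have h := checked_of_mem hD
  obtain ⟨i0, hi0⟩ := exists_co_ne hD F (r := n + i) (by omega)
  refine ⟨i0, fun h0 => ha' ?_⟩
  exact mem_next h (lev_pos h hn hn0 i) (lev_lt h hn hi) (by omega) (lev_of_lt hi).symm
    (fun s hs hle => lev_next h hn hi hs hle) hi0 rfl ha h0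

theorem relIndex_le [Finite F] (hD : InList D) {n : ℕ} (hn : D.nroots = 2 * n) (hn0 : 0 < n) {i : ℕ} (hi : i < n)
    (A : Subgroup (GL D.Idx F)) : (Vc hD F n (i + 1)).relIndex (A ⊓ Vc hD F n i) ≤ Nat.card F := by
  have h := checked_of_mem hD
  have hpos := lev_pos h hn hn0
  obtain ⟨i0, hi0⟩ := exists_co_ne hD F (r := n + i) (by omega)
  refine relIndex_le_of_inj (X := F) (φ := ka i0 ⟨D.neg (n + i), neg_lt h (by omega)⟩) ?_
  intro a ha b hb hab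
  have hz : ff D (mm D) (D.neg (n + i)) = - lev D n i := by rw [ff_neg h (by omega), lev_of_lt hi]
  refine mem_next h (hpos i) (lev_lt h hn hi) (r := n + i) (z := ⟨D.neg (n + i), neg_lt h (by omega)⟩)
    (by omega) (lev_of_lt hi).symm
    (fun s hs hle => lev_next h hn hi hs hle) hi0 rfl (mul_mem (inv_mem ha.2) hb.2) ?_
  rw [ka_mul_V h (hpos i) hz (inv_mem ha.2) hb.2, ka_inv h (hpos i) hz ha.2, hab, neg_add_cancel]

theorem Vc_last (hD : InList D) {n : ℕ} (hn : D.nroots = 2 * n) (hn0 : 0 < n) : Vc hD F n n = ⊥ := by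
  have h := checked_of_mem hD
  apply V_eq_bot
  intro r hr
  have e1 : lev D n n = ff D (mm D) (2 * n - 1) + 1 := by unfold lev; rw [if_neg (lt_irrefl n)]
  have e2 := ff_mm_lt_iff h (r := 2 * n - 1) (by omega) hr
  rw [e1]
  omega

/-- two levels joined by a good pair do not both occur -/
theorem not_mem_drops [Finite F] (hD : InList D) {n : ℕ} (hn : D.nroots = 2 * n) (hn0 : 0 < n)
    {A : Subgroup (GL D.Idx F)} (hcomm : IsMulCommutative A) {i j k : ℕ} (hi : i < n) (hj : j < n)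
    (Gd : Good D F (mm D) (ff D (mm D) (n + i)) (ff D (mm D) (n + j)) (n + i) (n + j) k)
    (h1 : i ∈ drops A (Vc hD F n) n) (h2 : j ∈ drops A (Vc hD F n) n) : False := by
  have h := checked_of_mem hD
  have hpos := lev_pos h hn hn0
  obtain ⟨-, h3⟩ := mem_drops.1 h1
  obtain ⟨-, h4⟩ := mem_drops.1 h2
  rw [SetLike.not_le_iff_exists] at h3 h4
  obtain ⟨a, ha, ha'⟩ := h3
  obtain ⟨b, hb, hb'⟩ := h4
  obtain ⟨i1, hi1⟩ := exists_ka_ne hD hn hn0 hi ha.2 ha'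
  obtain ⟨i2, hi2⟩ := exists_ka_ne hD hn hn0 hj hb.2 hb'
  have haU : a ∈ V hD F (mm D) (lev D n i) := ha.2
  have hbU : b ∈ V hD F (mm D) (lev D n j) := hb.2
  rw [lev_of_lt hi] at haU
  rw [lev_of_lt hj] at hbU
  refine not_comm h ?_ ?_ Gd rfl rfl haU hbU hi1 hi2 ?_
  · have := hpos i; rwa [lev_of_lt hi] at this
  · have := hpos j; rwa [lev_of_lt hj] at this
  · exact congrArg Subtype.val (hcomm.is_comm.comm ⟨a, ha.1⟩ ⟨b, hb.1⟩)

/-- the bound by the number of levels -/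
theorem card_le_of_drops [Finite F] (hD : InList D) {n : ℕ} (hn : D.nroots = 2 * n) (hn0 : 0 < n)
    {A : Subgroup (GL D.Idx F)} (hA : A ≤ D.posUnipotent F) {k : ℕ} (hk : (drops A (Vc hD F n) n).card ≤ k) :
    Nat.card A ≤ Nat.card F ^ k := by
  have h := checked_of_mem hD
  have h1 := card_le_drops (U := Vc hD F n) (w := fun _ => 1) (q := Nat.card F) (A := A)
    (hA.trans (pos_le_V h hn hn0)) n (fun i hi => V_anti (lev_lt h hn hi).le)
    (fun i hi _ => by rw [pow_one]; exact relIndex_le hD hn hn0 hi A) (Vc_last hD hn hn0)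
  refine h1.trans (Nat.pow_le_pow_right Nat.card_pos ?_)
  rw [Finset.sum_const, smul_eq_mul, mul_one]
  exact hk

end General

/-! ### `G₂` -/

theorem hG2 : InList chevG2 := by simp [InList]

theorem nroots_G2 : chevG2.nroots = 2 * 6 := rfl

theorem ct67 : chevG2.commTerms 7 6 = [(8, -1, 1, 1), (9, 1, 2, 1), (10, 1, 3, 1), (11, 1, 3, 2)] := by decide +kernel
theorem ct6A : chevG2.commTerms 10 6 = [(11, -1, 1, 1)] := by decide +kernel
theorem ct78 : chevG2.commTerms 8 7 = [(9, 2, 1, 1), (11, 3, 2, 1), (10, -3, 1, 2)] := by decide +kernel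
theorem ct79 : chevG2.commTerms 9 7 = [(10, -3, 1, 1)] := by decide +kernel
theorem ct89 : chevG2.commTerms 9 8 = [(11, -3, 1, 1)] := by decide +kernel

theorem ct78' : chevG2.commTerms 7 8 = [(9, -2, 1, 1), (10, -3, 2, 1), (11, 3, 1, 2)] := by decide +kernel
theorem ct79' : chevG2.commTerms 7 9 = [(10, 3, 1, 1)] := by decide +kernel
theorem ct89' : chevG2.commTerms 8 9 = [(11, 3, 1, 1)] := by decide +kernel

variable {F : Type u} [Field F]

theorem good01 : Good chevG2 F (mm chevG2) (ff chevG2 (mm chevG2) 6) (ff chevG2 (mm chevG2) 7) 6 7 8 := by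
  refine good_of_csum (checked_of_mem hG2) (by decide) (by decide) (by decide) ?_ ?_
  · rw [ct67]; exact ⟨(8, -1, 1, 1), by simp, rfl, rfl, rfl⟩
  · have e : csum chevG2 7 6 8 = -1 := by unfold csum; rw [ct67]; rfl
    rw [e]; push_cast; exact neg_ne_zero.2 one_ne_zero

theorem good04 : Good chevG2 F (mm chevG2) (ff chevG2 (mm chevG2) 6) (ff chevG2 (mm chevG2) 10) 6 10 11 := by
  refine good_of_csum (checked_of_mem hG2) (by decide) (by decide) (by decide) ?_ ?_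
  · rw [ct6A]; exact ⟨(11, -1, 1, 1), by simp, rfl, rfl, rfl⟩
  · have e : csum chevG2 10 6 11 = -1 := by unfold csum; rw [ct6A]; rfl
    rw [e]; push_cast; exact neg_ne_zero.2 one_ne_zero

theorem good12 (h2 : (2 : F) ≠ 0) :
    Good chevG2 F (mm chevG2) (ff chevG2 (mm chevG2) 7) (ff chevG2 (mm chevG2) 8) 7 8 9 := by
  refine good_of_csum (checked_of_mem hG2) (by decide) (by decide) (by decide) ?_ ?_
  · rw [ct78]; exact ⟨(9, 2, 1, 1), by simp, rfl, rfl, rfl⟩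
  · have e : csum chevG2 8 7 9 = 2 := by unfold csum; rw [ct78]; rfl
    rw [e]; exact_mod_cast h2

theorem good13 (h3 : (3 : F) ≠ 0) :
    Good chevG2 F (mm chevG2) (ff chevG2 (mm chevG2) 7) (ff chevG2 (mm chevG2) 9) 7 9 10 := by
  refine good_of_csum (checked_of_mem hG2) (by decide) (by decide) (by decide) ?_ ?_
  · rw [ct79]; exact ⟨(10, -3, 1, 1), by simp, rfl, rfl, rfl⟩
  · have e : csum chevG2 9 7 10 = -3 := by unfold csum; rw [ct79]; rfl
    rw [e]; push_cast; exact neg_ne_zero.2 h3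

theorem good23 (h3 : (3 : F) ≠ 0) :
    Good chevG2 F (mm chevG2) (ff chevG2 (mm chevG2) 8) (ff chevG2 (mm chevG2) 9) 8 9 11 := by
  refine good_of_csum (checked_of_mem hG2) (by decide) (by decide) (by decide) ?_ ?_
  · rw [ct89]; exact ⟨(11, -3, 1, 1), by simp, rfl, rfl, rfl⟩
  · have e : csum chevG2 9 8 11 = -3 := by unfold csum; rw [ct89]; rfl
    rw [e]; push_cast; exact neg_ne_zero.2 h3

/-! ### independent sets of levels -/

/-- no pair of the list lies in `S` -/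
def Ind (L : List (ℕ × ℕ)) (S : Finset ℕ) : Prop := ∀ e ∈ L, ¬ (e.1 ∈ S ∧ e.2 ∈ S)

instance (L : List (ℕ × ℕ)) (S : Finset ℕ) : Decidable (Ind L S) := by unfold Ind; infer_instance

theorem indep_five : ∀ S ∈ (Finset.range 6).powerset, Ind [(0, 1), (0, 4), (1, 2), (1, 3), (2, 3)] S →
    S.card ≤ 3 := by decide

theorem indep_three : ∀ S ∈ (Finset.range 6).powerset, Ind [(0, 1), (0, 4), (1, 2)] S → S.card ≤ 4 := by decide

theorem indep_two : ∀ S ∈ (Finset.range 6).powerset, Ind [(0, 1), (0, 4), (1, 3), (2, 3)] S →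
    S.card ≤ 3 ∨ S = {1, 2, 4, 5} := by decide

section Bound

variable [Finite F] {A : Subgroup (GL chevG2.Idx F)} (hcomm : IsMulCommutative A)

include hcomm

theorem d01 : ¬ (0 ∈ drops A (Vc hG2 F 6) 6 ∧ 1 ∈ drops A (Vc hG2 F 6) 6) := fun h =>
  not_mem_drops hG2 nroots_G2 (by norm_num) hcomm (by norm_num) (by norm_num) good01 h.1 h.2

theorem d04 : ¬ (0 ∈ drops A (Vc hG2 F 6) 6 ∧ 4 ∈ drops A (Vc hG2 F 6) 6) := fun h =>
  not_mem_drops hG2 nroots_G2 (by norm_num) hcomm (by norm_num) (by norm_num) good04 h.1 h.2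

theorem d12 (h2 : (2 : F) ≠ 0) : ¬ (1 ∈ drops A (Vc hG2 F 6) 6 ∧ 2 ∈ drops A (Vc hG2 F 6) 6) := fun h =>
  not_mem_drops hG2 nroots_G2 (by norm_num) hcomm (by norm_num) (by norm_num) (good12 h2) h.1 h.2

theorem d13 (h3 : (3 : F) ≠ 0) : ¬ (1 ∈ drops A (Vc hG2 F 6) 6 ∧ 3 ∈ drops A (Vc hG2 F 6) 6) := fun h =>
  not_mem_drops hG2 nroots_G2 (by norm_num) hcomm (by norm_num) (by norm_num) (good13 h3) h.1 h.2

theorem d23 (h3 : (3 : F) ≠ 0) : ¬ (2 ∈ drops A (Vc hG2 F 6) 6 ∧ 3 ∈ drops A (Vc hG2 F 6) 6) := fun h =>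
  not_mem_drops hG2 nroots_G2 (by norm_num) hcomm (by norm_num) (by norm_num) (good23 h3) h.1 h.2

omit [Finite F] hcomm in
theorem drops_pow : drops A (Vc hG2 F 6) 6 ∈ (Finset.range 6).powerset := Finset.mem_powerset.2 drops_subset

theorem card_le_five (h2 : (2 : F) ≠ 0) (h3 : (3 : F) ≠ 0) (hA : A ≤ chevG2.posUnipotent F) :
    Nat.card A ≤ Nat.card F ^ 3 :=
  card_le_of_drops hG2 nroots_G2 (by norm_num) hA
    (indep_five _ drops_pow (by
      simp only [Ind, List.mem_cons, List.not_mem_nil, or_false, forall_eq_or_imp, forall_eq]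
      exact ⟨d01 hcomm, d04 hcomm, d12 hcomm h2, d13 hcomm h3, d23 hcomm h3⟩))

theorem card_le_three (h2 : (2 : F) ≠ 0) (hA : A ≤ chevG2.posUnipotent F) :
    Nat.card A ≤ Nat.card F ^ 4 :=
  card_le_of_drops hG2 nroots_G2 (by norm_num) hA
    (indep_three _ drops_pow (by
      simp only [Ind, List.mem_cons, List.not_mem_nil, or_false, forall_eq_or_imp, forall_eq]
      exact ⟨d01 hcomm, d04 hcomm, d12 hcomm h2⟩))

end Bound

/-! ### characteristic `2` -/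

/-- the commutator formula -/
theorem swap {r s : ℕ} (hr : r < chevG2.nroots) (hs : s < chevG2.nroots) (hsr : s ≠ r) (hneg : s ≠ chevG2.neg r)
    (t u : F) : xG hG2 s u * xG hG2 r t = xG hG2 r t * xG hG2 s u * wordG hG2 (chevG2.commWord F r s t u) := by
  apply Units.ext
  rw [Units.val_mul, Units.val_mul, Units.val_mul, coe_wordG]
  exact Cfsg.Agent.S1025.result (F := F) chevG2 hG2 r s hr hs hsr hneg t u

section Two

variable [CharP F 2]

theorem swap87 (u t : F) : xG hG2 8 t * xG hG2 7 u =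
    xG hG2 7 u * xG hG2 8 t * (xG hG2 10 (u ^ 2 * t) * xG hG2 11 (u * t ^ 2)) := by
  have h2 : (2 : F) = 0 := CharTwo.two_eq_zero
  rw [swap (by decide) (by decide) (by decide) (by decide +kernel)]
  congr 1
  unfold ChevalleyDatum.commWord
  rw [ct78']
  simp only [List.map_cons, List.map_nil, wordG_cons, wordG_nil, mul_one]
  have e1 : (((-2 : ℤ) : F) * (-u) ^ 1 * t ^ 1) = 0 := by push_cast; linear_combination (u * t) * h2
  have e2 : (((-3 : ℤ) : F) * (-u) ^ 2 * t ^ 1) = u ^ 2 * t := by push_cast; linear_combination (-2 * (u ^ 2 * t)) * h2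
  have e3 : (((3 : ℤ) : F) * (-u) ^ 1 * t ^ 2) = u * t ^ 2 := by push_cast; linear_combination (-2 * (u * t ^ 2)) * h2
  rw [e1, e2, e3, xG_zero, one_mul]

theorem swap97 (u s : F) : xG hG2 9 s * xG hG2 7 u = xG hG2 7 u * xG hG2 9 s * xG hG2 10 (u * s) := by
  have h2 : (2 : F) = 0 := CharTwo.two_eq_zero
  rw [swap (by decide) (by decide) (by decide) (by decide +kernel)]
  congr 1
  unfold ChevalleyDatum.commWord
  rw [ct79']
  simp only [List.map_cons, List.map_nil, wordG_cons, wordG_nil, mul_one]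
  have e3 : (((3 : ℤ) : F) * (-u) ^ 1 * s ^ 1) = u * s := by push_cast; linear_combination (-2 * (u * s)) * h2
  rw [e3]

theorem swap98 (t s : F) : xG hG2 9 s * xG hG2 8 t = xG hG2 8 t * xG hG2 9 s * xG hG2 11 (t * s) := by
  have h2 : (2 : F) = 0 := CharTwo.two_eq_zero
  rw [swap (by decide) (by decide) (by decide) (by decide +kernel)]
  congr 1
  unfold ChevalleyDatum.commWord
  rw [ct89']
  simp only [List.map_cons, List.map_nil, wordG_cons, wordG_nil, mul_one]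
  have e3 : (((3 : ℤ) : F) * (-t) ^ 1 * s ^ 1) = t * s := by push_cast; linear_combination (-2 * (t * s)) * h2
  rw [e3]

end Two

theorem lev1 : lev chevG2 6 1 = 64 := by decide +kernel
theorem lev2 : lev chevG2 6 2 = 65 := by decide +kernel
theorem lev3 : lev chevG2 6 3 = 129 := by decide +kernel
theorem lev4 : lev chevG2 6 4 = 193 := by decide +kernel
theorem lev5 : lev chevG2 6 5 = 194 := by decide +kernel

theorem Vc_anti {i j : ℕ} (hij : i ≤ j) (hj : j ≤ 6) : Vc hG2 F 6 j ≤ Vc hG2 F 6 i := by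
  induction j, hij using Nat.le_induction with
  | base => exact le_rfl
  | succ j hij ih =>
    refine le_trans ?_ (ih (by omega))
    exact V_anti (lev_lt (checked_of_mem hG2) nroots_G2 (by omega)).le

/-- `V 4` centralises `V 1` -/
theorem central {x z : GL chevG2.Idx F} (hx : x ∈ Vc hG2 F 6 1) (hz : z ∈ Vc hG2 F 6 4) : z * x = x * z := by
  have h1 := V_comm (checked_of_mem hG2) (by rw [lev1]; norm_num) (by rw [lev4]; norm_num) hx hz
  rw [lev1, lev4] at h1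
  have h2 : V hG2 F (mm chevG2) (64 + 193) = ⊥ := by
    have h3 := Vc_last (F := F) hG2 nroots_G2 (by norm_num)
    rw [eq_bot_iff, ← h3]
    exact V_anti (by decide +kernel)
  rw [h2, Subgroup.mem_bot, commutatorElement_eq_one_iff_mul_comm] at h1
  exact h1.symm

theorem x_mem {i : ℕ} (hi : i < 6) (t : F) : xG hG2 (6 + i) t ∈ Vc hG2 F 6 i :=
  xG_mem_V (by have := nroots_G2; omega) (lev_of_lt hi).le t

theorem decomp {i : ℕ} (hi : i < 6) {a : GL chevG2.Idx F} (ha : a ∈ Vc hG2 F 6 i) :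
    ∃ t : F, ∃ a' ∈ Vc hG2 F 6 (i + 1), a = xG hG2 (6 + i) t * a' :=
  exists_decomp (checked_of_mem hG2) (lev_pos (checked_of_mem hG2) nroots_G2 (by norm_num) i)
    (lev_lt (checked_of_mem hG2) nroots_G2 hi) (by have := nroots_G2; omega) (lev_of_lt hi).symm
    (fun _ hs hle => lev_next (checked_of_mem hG2) nroots_G2 hi hs hle) ha

/-- uniqueness of the coordinates in `V 4` -/
theorem uniq45 {α β γ : F} (h : xG hG2 10 α * xG hG2 11 β = xG hG2 11 γ) : α = 0 ∧ β = γ := by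
  have hc := checked_of_mem hG2
  obtain ⟨i, hi⟩ := exists_co_ne hG2 F (r := 10) (by decide)
  have h10 : ff chevG2 (mm chevG2) 10 = lev chevG2 6 4 := (lev_of_lt (n := 6) (i := 4) (by norm_num)).symm
  have h1 := congrArg (ka i (⟨chevG2.neg 10, by decide +kernel⟩ : Fin chevG2.nroots)) h
  have hz : ff chevG2 (mm chevG2) (chevG2.neg 10) = - lev chevG2 6 4 := by rw [ff_neg hc (by decide), h10]
  rw [ka_mul_V hc (by rw [lev4]; norm_num) hz (x_mem (i := 4) (by norm_num) α)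
    (Vc_anti (i := 4) (j := 5) (by norm_num) (by norm_num) (x_mem (i := 5) (by norm_num) β)), ka_xG hc (by decide),
    ka_xG hc (by decide), ka_xG hc (by decide), if_pos rfl, if_neg (by decide +kernel), if_neg (by decide +kernel),
    add_zero] at h1
  have h2 : α = 0 := (mul_eq_zero.1 h1).resolve_left hi
  rw [h2, xG_zero, one_mul] at h
  exact ⟨h2, xG_injective hG2 (by decide) h⟩

/-- **the relations between commuting elements** -/
theorem rel [CharP F 2] {u₁ t₁ s₁ t₂ s₂ : F} {z₁ z₂ : GL chevG2.Idx F} (hz₁ : z₁ ∈ Vc hG2 F 6 4)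
    (hz₂ : z₂ ∈ Vc hG2 F 6 4)
    (h : (xG hG2 7 u₁ * (xG hG2 8 t₁ * (xG hG2 9 s₁ * z₁))) * (xG hG2 8 t₂ * (xG hG2 9 s₂ * z₂)) =
      (xG hG2 8 t₂ * (xG hG2 9 s₂ * z₂)) * (xG hG2 7 u₁ * (xG hG2 8 t₁ * (xG hG2 9 s₁ * z₁)))) :
    u₁ ^ 2 * t₂ + u₁ * s₂ = 0 ∧ t₂ * s₁ = u₁ * t₂ ^ 2 + t₁ * s₂ := by
  have m7 : ∀ t : F, xG hG2 7 t ∈ Vc hG2 F 6 1 := fun t => x_mem (i := 1) (by norm_num) t
  have m8 : ∀ t : F, xG hG2 8 t ∈ Vc hG2 F 6 1 := fun t =>
    Vc_anti (i := 1) (j := 2) (by norm_num) (by norm_num) (x_mem (i := 2) (by norm_num) t)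
  have m9 : ∀ t : F, xG hG2 9 t ∈ Vc hG2 F 6 1 := fun t =>
    Vc_anti (i := 1) (j := 3) (by norm_num) (by norm_num) (x_mem (i := 3) (by norm_num) t)
  have m10 : ∀ t : F, xG hG2 10 t ∈ Vc hG2 F 6 4 := fun t => x_mem (i := 4) (by norm_num) t
  have m11 : ∀ t : F, xG hG2 11 t ∈ Vc hG2 F 6 4 := fun t =>
    Vc_anti (i := 4) (j := 5) (by norm_num) (by norm_num) (x_mem (i := 5) (by norm_num) t)
  have m41 : ∀ z ∈ Vc hG2 F 6 4, z ∈ Vc hG2 F 6 1 := fun z hz => Vc_anti (by norm_num) (by norm_num) hz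
  -- left side
  have L : (xG hG2 7 u₁ * (xG hG2 8 t₁ * (xG hG2 9 s₁ * z₁))) * (xG hG2 8 t₂ * (xG hG2 9 s₂ * z₂)) =
      xG hG2 7 u₁ * (xG hG2 8 (t₁ + t₂) * (xG hG2 9 (s₁ + s₂) * (xG hG2 11 (t₂ * s₁) * (z₁ * z₂)))) := by
    calc (xG hG2 7 u₁ * (xG hG2 8 t₁ * (xG hG2 9 s₁ * z₁))) * (xG hG2 8 t₂ * (xG hG2 9 s₂ * z₂))
        = xG hG2 7 u₁ * (xG hG2 8 t₁ * (xG hG2 9 s₁ * (z₁ * (xG hG2 8 t₂ * xG hG2 9 s₂)) * z₂)) := by
          simp only [mul_assoc]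
      _ = xG hG2 7 u₁ * (xG hG2 8 t₁ * (xG hG2 9 s₁ * ((xG hG2 8 t₂ * xG hG2 9 s₂) * z₁) * z₂)) := by
          rw [central (mul_mem (m8 t₂) (m9 s₂)) hz₁]
      _ = xG hG2 7 u₁ * (xG hG2 8 t₁ * ((xG hG2 9 s₁ * xG hG2 8 t₂) * (xG hG2 9 s₂ * (z₁ * z₂)))) := by
          simp only [mul_assoc]
      _ = xG hG2 7 u₁ * (xG hG2 8 t₁ * (xG hG2 8 t₂ * (xG hG2 9 s₁ * (xG hG2 11 (t₂ * s₁) * xG hG2 9 s₂)) *
            (z₁ * z₂))) := by
          rw [swap98]; simp only [mul_assoc]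
      _ = xG hG2 7 u₁ * (xG hG2 8 t₁ * (xG hG2 8 t₂ * (xG hG2 9 s₁ * (xG hG2 9 s₂ * xG hG2 11 (t₂ * s₁))) *
            (z₁ * z₂))) := by
          rw [central (m9 s₂) (m11 _)]
      _ = xG hG2 7 u₁ * ((xG hG2 8 t₁ * xG hG2 8 t₂) * ((xG hG2 9 s₁ * xG hG2 9 s₂) * (xG hG2 11 (t₂ * s₁) *
            (z₁ * z₂)))) := by
          simp only [mul_assoc]
      _ = _ := by rw [xG_add, xG_add]
  have R : (xG hG2 8 t₂ * (xG hG2 9 s₂ * z₂)) * (xG hG2 7 u₁ * (xG hG2 8 t₁ * (xG hG2 9 s₁ * z₁))) =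
      xG hG2 7 u₁ * (xG hG2 8 (t₁ + t₂) * (xG hG2 9 (s₁ + s₂) *
        ((xG hG2 10 (u₁ ^ 2 * t₂ + u₁ * s₂) * xG hG2 11 (u₁ * t₂ ^ 2 + t₁ * s₂)) * (z₁ * z₂)))) := by
    have c1 : z₂ * (xG hG2 7 u₁ * (xG hG2 8 t₁ * xG hG2 9 s₁)) =
        (xG hG2 7 u₁ * (xG hG2 8 t₁ * xG hG2 9 s₁)) * z₂ :=
      central (mul_mem (m7 _) (mul_mem (m8 _) (m9 _))) hz₂
    have c2 : xG hG2 10 (u₁ * s₂) * (xG hG2 8 t₁ * xG hG2 9 s₁) =
        (xG hG2 8 t₁ * xG hG2 9 s₁) * xG hG2 10 (u₁ * s₂) := central (mul_mem (m8 _) (m9 _)) (m10 _)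
    have c3 : (xG hG2 10 (u₁ ^ 2 * t₂) * xG hG2 11 (u₁ * t₂ ^ 2)) * (xG hG2 9 s₂ * (xG hG2 8 t₁ * xG hG2 9 s₁)) =
        (xG hG2 9 s₂ * (xG hG2 8 t₁ * xG hG2 9 s₁)) * (xG hG2 10 (u₁ ^ 2 * t₂) * xG hG2 11 (u₁ * t₂ ^ 2)) :=
      central (mul_mem (m9 _) (mul_mem (m8 _) (m9 _))) (mul_mem (m10 _) (m11 _))
    have c4 : xG hG2 11 (t₁ * s₂) * xG hG2 9 s₁ = xG hG2 9 s₁ * xG hG2 11 (t₁ * s₂) := central (m9 _) (m11 _)
    have c5 : xG hG2 11 (t₁ * s₂) * (xG hG2 10 (u₁ ^ 2 * t₂) * xG hG2 11 (u₁ * t₂ ^ 2) * xG hG2 10 (u₁ * s₂)) =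
        xG hG2 10 (u₁ ^ 2 * t₂ + u₁ * s₂) * xG hG2 11 (u₁ * t₂ ^ 2 + t₁ * s₂) := by
      rw [← xG_add, ← xG_add, central (m41 _ (mul_mem (mul_mem (m10 _) (m11 _)) (m10 _))) (m11 (t₁ * s₂)),
        mul_assoc (xG hG2 10 (u₁ ^ 2 * t₂)) (xG hG2 11 (u₁ * t₂ ^ 2)),
        central (m41 _ (m10 (u₁ * s₂))) (m11 (u₁ * t₂ ^ 2))]
      simp only [mul_assoc]
    have c6 : z₂ * z₁ = z₁ * z₂ := central (m41 _ hz₁) hz₂
    calc (xG hG2 8 t₂ * (xG hG2 9 s₂ * z₂)) * (xG hG2 7 u₁ * (xG hG2 8 t₁ * (xG hG2 9 s₁ * z₁)))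
        = xG hG2 8 t₂ * (xG hG2 9 s₂ * (z₂ * (xG hG2 7 u₁ * (xG hG2 8 t₁ * xG hG2 9 s₁))) * z₁) := by
          simp only [mul_assoc]
      _ = xG hG2 8 t₂ * ((xG hG2 9 s₂ * xG hG2 7 u₁) * (xG hG2 8 t₁ * (xG hG2 9 s₁ * (z₂ * z₁)))) := by
          rw [c1]; simp only [mul_assoc]
      _ = xG hG2 8 t₂ * (xG hG2 7 u₁ * (xG hG2 9 s₂ * (xG hG2 10 (u₁ * s₂) * (xG hG2 8 t₁ * xG hG2 9 s₁))) *
            (z₁ * z₂)) := by
          rw [swap97, c6]; simp only [mul_assoc]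
      _ = (xG hG2 8 t₂ * xG hG2 7 u₁) * (xG hG2 9 s₂ * (xG hG2 8 t₁ * (xG hG2 9 s₁ * (xG hG2 10 (u₁ * s₂) *
            (z₁ * z₂))))) := by
          rw [c2]; simp only [mul_assoc]
      _ = xG hG2 7 u₁ * (xG hG2 8 t₂ * (((xG hG2 10 (u₁ ^ 2 * t₂) * xG hG2 11 (u₁ * t₂ ^ 2)) *
            (xG hG2 9 s₂ * (xG hG2 8 t₁ * xG hG2 9 s₁))) * (xG hG2 10 (u₁ * s₂) * (z₁ * z₂)))) := by
          rw [swap87]; simp only [mul_assoc]
      _ = xG hG2 7 u₁ * (xG hG2 8 t₂ * ((xG hG2 9 s₂ * xG hG2 8 t₁) * (xG hG2 9 s₁ * ((xG hG2 10 (u₁ ^ 2 * t₂) *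
            xG hG2 11 (u₁ * t₂ ^ 2) * xG hG2 10 (u₁ * s₂)) * (z₁ * z₂))))) := by
          rw [c3]; simp only [mul_assoc]
      _ = xG hG2 7 u₁ * ((xG hG2 8 t₂ * xG hG2 8 t₁) * (xG hG2 9 s₂ * ((xG hG2 11 (t₁ * s₂) * xG hG2 9 s₁) *
            ((xG hG2 10 (u₁ ^ 2 * t₂) * xG hG2 11 (u₁ * t₂ ^ 2) * xG hG2 10 (u₁ * s₂)) * (z₁ * z₂))))) := by
          rw [swap98]; simp only [mul_assoc]
      _ = xG hG2 7 u₁ * ((xG hG2 8 t₂ * xG hG2 8 t₁) * ((xG hG2 9 s₂ * xG hG2 9 s₁) * ((xG hG2 11 (t₁ * s₂) *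
            (xG hG2 10 (u₁ ^ 2 * t₂) * xG hG2 11 (u₁ * t₂ ^ 2) * xG hG2 10 (u₁ * s₂))) * (z₁ * z₂)))) := by
          rw [c4]; simp only [mul_assoc]
      _ = _ := by rw [c5, xG_add, xG_add, add_comm t₂, add_comm s₂]
  rw [L, R] at h
  have h1 := mul_left_cancel (mul_left_cancel (mul_left_cancel h))
  obtain ⟨h2, h3⟩ := uniq45 (mul_right_cancel h1).symm
  exact ⟨h2, h3.symm⟩

/-- a bound for the index if there are at most two values -/
theorem relIndex_le_two {G : Type*} [Group G] {X : Type*} {H K : Subgroup G} (φ : G → X) (x₀ x₁ : X)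
    (hφ : ∀ a ∈ K, ∀ b ∈ K, φ a = φ b → a⁻¹ * b ∈ H) (hv : ∀ a ∈ K, φ a = x₀ ∨ φ a = x₁) : H.relIndex K ≤ 2 := by
  classical
  have h1 := relIndex_le_of_inj (X := Fin 2) (H := H) (K := K) (fun a => if φ a = x₀ then 0 else 1) (by
    intro a ha b hb hab
    refine hφ a ha b hb ?_
    by_cases h2 : φ a = x₀
    · by_cases h3 : φ b = x₀
      · rw [h2, h3]
      · simp only [h2, h3, if_true, if_false] at hab
        exact absurd hab (by decide)
    · by_cases h3 : φ b = x₀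
      · simp only [h2, h3, if_true, if_false] at hab
        exact absurd hab (by decide)
      · rw [(hv a ha).resolve_left h2, (hv b hb).resolve_left h3])
  rwa [Nat.card_eq_fintype_card, Fintype.card_fin] at h1

open Classical in
/-- the coordinate of an element of `V i` at `i` -/
noncomputable def cx (F : Type u) [Field F] (i : ℕ) (a : GL chevG2.Idx F) : F :=
  if h : ∃ t : F, ∃ a' ∈ Vc hG2 F 6 (i + 1), a = xG hG2 (6 + i) t * a' then h.choose else 0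

theorem cx_spec {i : ℕ} (hi : i < 6) {a : GL chevG2.Idx F} (ha : a ∈ Vc hG2 F 6 i) :
    ∃ a' ∈ Vc hG2 F 6 (i + 1), a = xG hG2 (6 + i) (cx F i a) * a' := by
  unfold cx
  rw [dif_pos (decomp hi ha)]
  exact (decomp hi ha).choose_spec

theorem cx_inj {i : ℕ} (hi : i < 6) {a b : GL chevG2.Idx F} (ha : a ∈ Vc hG2 F 6 i) (hb : b ∈ Vc hG2 F 6 i)
    (h : cx F i a = cx F i b) : a⁻¹ * b ∈ Vc hG2 F 6 (i + 1) := by
  obtain ⟨a', ha', h1⟩ := cx_spec hi ha
  obtain ⟨b', hb', h2⟩ := cx_spec hi hb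
  rw [h1, h2, h]
  have e : (xG hG2 (6 + i) (cx F i b) * a')⁻¹ * (xG hG2 (6 + i) (cx F i b) * b') = a'⁻¹ * b' := by group
  rw [e]
  exact mul_mem (inv_mem ha') hb'

/-- the coordinates of an element of `V 1` -/
theorem coords {a : GL chevG2.Idx F} (ha : a ∈ Vc hG2 F 6 1) : ∃ t s : F, ∃ z ∈ Vc hG2 F 6 4,
    a = xG hG2 7 (cx F 1 a) * (xG hG2 8 t * (xG hG2 9 s * z)) := by
  obtain ⟨a₁, ha₁, h1⟩ := cx_spec (i := 1) (by norm_num) ha
  obtain ⟨t, a₂, ha₂, h2⟩ := decomp (i := 2) (by norm_num) ha₁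
  obtain ⟨s, a₃, ha₃, h3⟩ := decomp (i := 3) (by norm_num) ha₂
  refine ⟨t, s, a₃, ha₃, ?_⟩
  rw [← h3, ← h2]
  exact h1

theorem coords2 {a : GL chevG2.Idx F} (ha : a ∈ Vc hG2 F 6 2) : ∃ s : F, ∃ z ∈ Vc hG2 F 6 4,
    a = xG hG2 8 (cx F 2 a) * (xG hG2 9 s * z) := by
  obtain ⟨a₂, ha₂, h2⟩ := cx_spec (i := 2) (by norm_num) ha
  obtain ⟨s, a₃, ha₃, h3⟩ := decomp (i := 3) (by norm_num) ha₂
  refine ⟨s, a₃, ha₃, ?_⟩
  rw [← h3]
  exact h2

theorem cx_ne {i : ℕ} (hi : i < 6) {a : GL chevG2.Idx F} (ha : a ∈ Vc hG2 F 6 i) (ha' : a ∉ Vc hG2 F 6 (i + 1)) :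
    cx F i a ≠ 0 := by
  intro h0
  obtain ⟨a₁, ha₁, h1⟩ := cx_spec hi ha
  rw [h0, xG_zero, one_mul] at h1
  exact ha' (h1 ▸ ha₁)

section Two

variable [CharP F 2] [Finite F] {A : Subgroup (GL chevG2.Idx F)} (hcomm : IsMulCommutative A)

include hcomm

theorem card_le_two_aux {n : ℕ} (hn : 2 ≤ n) (hF : Nat.card F = 2 ^ n) (hA : A ≤ chevG2.posUnipotent F)
    (hd : drops A (Vc hG2 F 6) 6 = {1, 2, 4, 5}) : Nat.card A ≤ Nat.card F ^ 3 := by
  have h := checked_of_mem hG2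
  have h0 : A ≤ Vc hG2 F 6 0 := hA.trans (pos_le_V h nroots_G2 (by norm_num))
  have n0 : 0 ∉ drops A (Vc hG2 F 6) 6 := by rw [hd]; decide
  have y1 : 1 ∈ drops A (Vc hG2 F 6) 6 := by rw [hd]; decide
  have y2 : 2 ∈ drops A (Vc hG2 F 6) 6 := by rw [hd]; decide
  have h01 : A ≤ Vc hG2 F 6 1 := by
    rw [mem_drops] at n0
    push Not at n0
    have := n0 (by norm_num)
    rwa [inf_eq_left.2 h0] at this
  obtain ⟨-, h3⟩ := mem_drops.1 y1
  obtain ⟨-, h4⟩ := mem_drops.1 y2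
  rw [SetLike.not_le_iff_exists] at h3 h4
  obtain ⟨x, hx, hx'⟩ := h3
  obtain ⟨y, hy, hy'⟩ := h4
  have hx0 := cx_ne (by norm_num) hx.2 hx'
  have hy0 := cx_ne (by norm_num) hy.2 hy'
  -- the relations for `a ∈ A`, `b ∈ A ∩ V 2`
  have key : ∀ a ∈ A, ∃ t₁ s₁ : F, ∀ b ∈ A ⊓ Vc hG2 F 6 2, ∃ s₂ : F,
      cx F 1 a ^ 2 * cx F 2 b + cx F 1 a * s₂ = 0 ∧ cx F 2 b * s₁ = cx F 1 a * cx F 2 b ^ 2 + t₁ * s₂ := by
    intro a ha
    obtain ⟨t₁, s₁, z₁, hz₁, e1⟩ := coords (h01 ha)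
    refine ⟨t₁, s₁, fun b hb => ?_⟩
    obtain ⟨s₂, z₂, hz₂, e2⟩ := coords2 hb.2
    refine ⟨s₂, rel hz₁ hz₂ ?_⟩
    rw [← e1, ← e2]
    exact congrArg Subtype.val (hcomm.is_comm.comm ⟨a, ha⟩ ⟨b, hb.1⟩)
  -- level 1
  have hl1 : (Vc hG2 F 6 2).relIndex (A ⊓ Vc hG2 F 6 1) ≤ 2 := by
    -- the coordinate of `y` at `9`
    obtain ⟨s₂, z₂, hz₂, e2⟩ := coords2 hy.2
    refine relIndex_le_two (cx F 1) 0 (- s₂ / cx F 2 y)
      (fun a ha b hb hab => cx_inj (by norm_num) ha.2 hb.2 hab) ?_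
    intro a ha
    obtain ⟨t₁, s₁, z₁, hz₁, e1⟩ := coords (h01 ha.1)
    have h5 := rel hz₁ hz₂ (by
      rw [← e1, ← e2]
      exact congrArg Subtype.val (hcomm.is_comm.comm ⟨a, ha.1⟩ ⟨y, hy.1⟩))
    have h6 : cx F 1 a * (cx F 1 a * cx F 2 y + s₂) = 0 := by linear_combination h5.1
    rcases mul_eq_zero.1 h6 with h7 | h7
    · exact Or.inl h7
    · right
      rw [eq_div_iff hy0]
      linear_combination h7
  -- level 2
  have hl2 : (Vc hG2 F 6 3).relIndex (A ⊓ Vc hG2 F 6 2) ≤ 2 := by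
    obtain ⟨t₁, s₁, h5⟩ := key x hx.1
    refine relIndex_le_two (cx F 2) 0 ((s₁ + t₁ * cx F 1 x) / cx F 1 x)
      (fun a ha b hb hab => cx_inj (by norm_num) ha.2 hb.2 hab) ?_
    intro b hb
    obtain ⟨s₂, h6, h7⟩ := h5 b hb
    have h8 : cx F 1 x * (cx F 1 x * cx F 2 b + s₂) = 0 := by linear_combination h6
    have h9 : cx F 1 x * cx F 2 b + s₂ = 0 := (mul_eq_zero.1 h8).resolve_left hx0
    have h10 : s₂ = - (cx F 1 x * cx F 2 b) := by linear_combination h9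
    rw [h10] at h7
    have h11 : cx F 2 b * (cx F 1 x * cx F 2 b - (s₁ + t₁ * cx F 1 x)) = 0 := by linear_combination -h7
    rcases mul_eq_zero.1 h11 with h12 | h12
    · exact Or.inl h12
    · right
      rw [eq_div_iff hx0]
      linear_combination h12
  have h12 := card_le_drops (U := Vc hG2 F 6) (w := fun i => if i = 1 ∨ i = 2 then 1 else n) (q := 2) (A := A)
    h0 6 (fun i hi => V_anti (lev_lt h nroots_G2 hi).le)
    (fun i hi _ => by
      by_cases hi1 : i = 1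
      · subst hi1; simpa using hl1
      · by_cases hi2 : i = 2
        · subst hi2; simpa using hl2
        · rw [if_neg (by tauto), ← hF]
          exact relIndex_le hG2 nroots_G2 (by norm_num) hi A) (Vc_last hG2 nroots_G2 (by norm_num))
  rw [hd] at h12
  have h13 : (∑ i ∈ ({1, 2, 4, 5} : Finset ℕ), if i = 1 ∨ i = 2 then 1 else n) = 2 * n + 2 := by
    simp
    omega
  rw [h13] at h12
  refine h12.trans ?_
  rw [hF, ← pow_mul]
  exact Nat.pow_le_pow_right (by norm_num) (by omega)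

theorem card_le_two {n : ℕ} (hn : 2 ≤ n) (hF : Nat.card F = 2 ^ n) (hA : A ≤ chevG2.posUnipotent F) :
    Nat.card A ≤ Nat.card F ^ 3 := by
  have h3 : (3 : F) ≠ 0 := by
    have h2 : (2 : F) = 0 := CharTwo.two_eq_zero
    have : (3 : F) = 1 := by linear_combination h2
    rw [this]; exact one_ne_zero
  rcases indep_two _ (drops_pow (A := A)) (by
      simp only [Ind, List.mem_cons, List.not_mem_nil, or_false, forall_eq_or_imp, forall_eq]
      exact ⟨d01 hcomm, d04 hcomm, d13 hcomm h3, d23 hcomm h3⟩) with h4 | h4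
  · exact card_le_of_drops hG2 nroots_G2 (by norm_num) hA h4
  · exact card_le_two_aux hcomm hn hF hA h4

end Two

/-! ### the result -/

/-- **`PBG2`** -/
theorem pbG2 : PBG2 := by
  intro F _ _ p _ _ hF A hA hAp
  obtain ⟨P, hP⟩ := Cfsg.Agent.S2326.result (F := F) p chevG2 hG2
  obtain ⟨g, hg⟩ := H332.Ab.PB.exists_conj_le P hAp
  have h1 : ((A.map (MulAut.conj g).toMonoidHom).map (chevG2.group F).subtype) ≤ chevG2.posUnipotent F := by
    rw [hP] at hg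
    rintro x ⟨y, hy, rfl⟩
    exact Subgroup.mem_subgroupOf.1 (hg hy)
  have hc := H332.Ab.PB.comm_map (chevG2.group F).subtype (H332.Ab.PB.comm_map (MulAut.conj g).toMonoidHom hA)
  have h3 : Nat.card ((A.map (MulAut.conj g).toMonoidHom).map (chevG2.group F).subtype) = Nat.card A := by
    rw [Nat.card_congr (Subgroup.equivMapOfInjective _ _ (Subgroup.subtype_injective _)).symm.toEquiv,
      H332.Ab.PB.card_map_conj]
  rw [← h3, ← Nat.card_eq_fintype_card (α := F)]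
  have hpp : p.Prime := Fact.out
  have hcast : ∀ m : ℕ, ((m : ℕ) : F) = 0 ↔ p ∣ m := fun m => CharP.cast_eq_zero_iff F p m
  by_cases hp2 : p = 2
  · subst hp2
    obtain ⟨n, -, hn⟩ := FiniteField.card F 2
    rw [if_neg (by norm_num)]
    refine card_le_two hc (n := n) ?_ (by rw [Nat.card_eq_fintype_card, hn]) h1
    by_contra hcon
    have h4 : (n : ℕ) = 1 := by have := n.pos; omega
    rw [hn, h4] at hF
    omega
  · have h2 : (2 : F) ≠ 0 := by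
      intro h0
      have := (hcast 2).1 (by exact_mod_cast h0)
      exact hp2 ((Nat.prime_dvd_prime_iff_eq hpp Nat.prime_two).1 this)
    by_cases hp3 : p = 3
    · rw [if_pos hp3]
      exact card_le_three hc h2 h1
    · rw [if_neg hp3]
      refine card_le_five hc h2 ?_ h1
      intro h0
      have := (hcast 3).1 (by exact_mod_cast h0)
      exact hp3 ((Nat.prime_dvd_prime_iff_eq hpp Nat.prime_three).1 this)

end Cfsg.Agent.H316.Ab.G2Pb
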