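import Cfsg.Agent.H928.AbNum
import Cfsg.Agent.H157.Ab.X1
import Cfsg.Agent.H197.Ab.X3
import Cfsg.Agent.H316.Ab.X3Inst
import Cfsg.Agent.H316.Ab.G2Pb
import Cfsg.Agent.KFacts.RgdBorelTits
import Cfsg.Agent.KFacts.RgdFiltChev
import Cfsg.Agent.H35.ExcIdx
import Cfsg.Agent.S1059
import Cfsg.Agent.S1035

/-!
# Abelian subgroups of `G₂(q)`, `q ≥ 3` (helper316)

`g2` : `|A| ^ 3 < |G₂(q)|`; the row `g2` of `H157.Ab.Rows`.  For `q = 3` a `3'`-subgroup centralising a nontrivial
`3`-subgroup lies in a proper parabolic subgroup (Borel–Tits), so its order divides 16.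
-/

set_option autoImplicit false
set_option linter.unusedSectionVars false

namespace Cfsg.Agent.H316.Ab.G2Row

open Cfsg Cfsg.Lie
open Subgroup CoxeterSystem Cfsg.Agent.ChevalleyStructure.CoxeterGeom Cfsg.Agent.Tits.Roots Cfsg.Agent.Tits.Core
  Cfsg.Agent.Tits.Exchange Cfsg.Agent.Nodes.Reps Cfsg.Agent.Nodes.BNOf Cfsg.Agent.Nodes.StabComb
  Cfsg.Agent.Nodes.Bruhat Cfsg.Agent.Nodes.RGDLib Cfsg.Agent.Nodes.LeviDec
open Cfsg.Agent.ChevalleyStructure Cfsg.Agent.ChevalleyStructure.Elts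
  Cfsg.Agent.ChevalleyStructure.RootVec Cfsg.Agent.ChevalleyStructure.RootVecTab
  Cfsg.Agent.ChevalleyStructure.NPerm Cfsg.Agent.ChevalleyStructure.CoxeterGeomTypes
open Cfsg.Agent.Nodes Cfsg.Agent.Nodes.RGDChev Cfsg.Agent.KFacts.RgdBorelTits
open Cfsg.Agent.H157.Ab Cfsg.Agent.H928.AbNum
open Cfsg.Agent.H35.ExcIdx (TT XX)

variable {F : Type} [Field F] [Fintype F]

/-! ### `3'`-subgroups of the parabolic subgroups of `G₂(3)` -/

/-- the parabolic subgroups of rank 1 -/
theorem card_PJ_single {I W Y : Type*} [Fintype I] [DecidableEq I] [Group W] [Group Y] {M : CoxeterMatrix I}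
    {cs : CoxeterSystem M W} {A : I → I → ℤ} {h : IsCartan M A} {p : ℕ} {T : Subgroup Y} {n : I → Y}
    {X : (I → ℤ) → Subgroup Y} (R : RGD cs h p T n X) [Finite W] [Finite Y] (i : I) {y : ℕ}
    (hy : Nat.card (X (sr i)) = y) :
    Nat.card ↥(PJ cs h T X {i}) = (1 + y) * (Nat.card ↥(RGD.Sup X (RGD.Pos cs h)) * Nat.card ↥T) := by
  have hP : H35.Poin.APath A {i} (fun _ => i) 1 :=
    ⟨fun _ _ => rfl, fun t ht => absurd ht (by omega), fun s t _ _ => absurd (show False by omega) id,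
      fun j hj h1 => absurd (Set.mem_singleton_iff.1 hj).symm (h1 0 (by norm_num)), fun s hs t ht _ => by omega⟩
  have h1 := H35.Poin.card_PJ_path R hP (y := y) (fun _ _ => hy)
  have h2 : ({i} : Set I) \ {j | ∃ t < 1, (fun _ => i) t = j} = ∅ := by
    ext j
    simp only [Set.mem_sdiff, Set.mem_singleton_iff, Set.mem_ofPred_eq, Set.mem_empty_iff_false, iff_false, not_and,
      not_not]
    rintro rfl
    exact ⟨0, by norm_num, rfl⟩
  rw [h2, H35.Poin.PJ_empty, H35.Poin.card_B' R] at h1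
  rw [h1]
  congr 1
  simp [Finset.sum_range_succ]

theorem hpG2 : IsType chevG2 2 CoxeterMatrix.G₂ := by simp [IsType, typeList]

theorem char_three (hF : Fintype.card F = 3) : CharP F 3 := by
  obtain ⟨p, hp⟩ := CharP.exists F
  have hpp : p.Prime := CharP.char_is_prime F p
  obtain ⟨n, -, hn⟩ := FiniteField.card F p
  rw [hF] at hn
  have h1 : 3 ∣ p := Nat.prime_three.dvd_of_dvd_pow (n := n) (by rw [← hn])
  have h2 := (Nat.prime_dvd_prime_iff_eq Nat.prime_three hpp).1 h1
  subst h2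
  exact hp

theorem card_torus (hF : Fintype.card F = 3) : Nat.card ↥(TT chevG2 F) = 4 := by
  have h1 : Nat.card (TT chevG2 F) = Nat.card (chevG2.diagonalSubgroup F) :=
    Nat.card_congr (Subgroup.subgroupOfEquivOfLe (diagonal_le_group hpG2.inList F)).toEquiv
  have h2 : 1 * Nat.card (chevG2.diagonalSubgroup F) = (3 - 1) ^ 2 := S1035.result hF (chevG2, 1) (by simp)
  rw [h1, ← one_mul (Nat.card (chevG2.diagonalSubgroup F)), h2]
  norm_num

theorem card_G2_three (hF : Fintype.card F = 3) : Nat.card ↥(chevG2.group F) = 4245696 := by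
  rw [S1059.result hF]
  norm_num

/-- **A `3'`-subgroup normalising a nontrivial `3`-subgroup has order dividing `16`.** -/
theorem card_dvd_sixteen (hF : Fintype.card F = 3) {S K : Subgroup ↥(chevG2.group F)} (hS : ¬ 3 ∣ Nat.card S)
    (hK : IsPGroup 3 K) (hK1 : K ≠ ⊥) (hSK : S ≤ normalizer (K : Set ↥(chevG2.group F))) : Nat.card S ∣ 16 := by
  have i3 : Fact (Nat.Prime 3) := ⟨Nat.prime_three⟩
  have hchar := char_three hF
  have hW := finite_W hpG2 CoxeterMatrix.G₂.toCoxeterSystem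
  have hfin : Finite ↥(chevG2.group F) := Nat.finite_of_card_ne_zero (by rw [card_G2_three hF]; norm_num)
  have hFil := KFacts.RgdFiltChev.filt (K := F) hpG2 CoxeterMatrix.G₂.toCoxeterSystem 3
  have hG := H35.ExcIdx.GG_eq_top hpG2 F CoxeterMatrix.G₂.toCoxeterSystem
  have R := rgd (K := F) hpG2 CoxeterMatrix.G₂.toCoxeterSystem 3
  obtain ⟨g, J, hJ, -, hle⟩ := borel_tits hFil hG hK hK1
  have hU : IsPGroup 3 ↥(RGD.Sup (XX chevG2 2 F) (RGD.Pos CoxeterMatrix.G₂.toCoxeterSystem hpG2.isCartan)) :=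
    R.isPGroup_Upos
  obtain ⟨k, hk⟩ := IsPGroup.iff_card.1 hU
  have hX : ∀ i : Fin 2, Nat.card ↥(XX chevG2 2 F (sr i)) = 3 := by
    intro i
    have h1 := H35.ExcIdx.card_XX hpG2 F CoxeterMatrix.G₂.toCoxeterSystem
      (isRoot_sr CoxeterMatrix.G₂.toCoxeterSystem hpG2.isCartan i)
    rw [h1, Nat.card_eq_fintype_card, hF]
  have hT := card_torus hF
  -- the order of the parabolic subgroup divides `3 ^ k * 16`
  have hPJ : Nat.card ↥(PJ CoxeterMatrix.G₂.toCoxeterSystem hpG2.isCartan (TT chevG2 F) (XX chevG2 2 F) J) ∣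
      3 ^ k * 16 := by
    by_cases h0 : J = ∅
    · rw [h0, H35.Poin.PJ_empty, H35.Poin.card_B' R, hT, hk]
      exact Nat.mul_dvd_mul_left _ (by norm_num)
    · obtain ⟨i, hi⟩ := Set.nonempty_iff_ne_empty.2 h0
      have h1 : J = {i} := by
        ext j
        rw [Set.mem_singleton_iff]
        constructor
        · intro hj
          by_contra hji
          apply hJ
          ext t
          simp only [Set.mem_univ, iff_true]
          have : t = i ∨ t = j := by omega
          rcases this with rfl | rfl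
          · exact hi
          · exact hj
        · rintro rfl
          exact hi
      rw [h1, card_PJ_single R i (hX i), hT, hk]
      exact ⟨1, by ring⟩
  have h2 : Nat.card S ∣ 3 ^ k * 16 := by
    have h3 := Subgroup.card_dvd_of_le (hSK.trans hle)
    refine h3.trans ?_
    have h4 : Nat.card ↥(cj g (PJ CoxeterMatrix.G₂.toCoxeterSystem hpG2.isCartan (TT chevG2 F) (XX chevG2 2 F) J)) =
        Nat.card ↥(PJ CoxeterMatrix.G₂.toCoxeterSystem hpG2.isCartan (TT chevG2 F) (XX chevG2 2 F) J) :=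
      H332.Ab.PB.card_map_conj _ g
    rw [h4]
    exact hPJ
  refine Nat.Coprime.dvd_of_dvd_mul_left ?_ h2
  exact Nat.Coprime.pow_right _ ((Nat.Prime.coprime_iff_not_dvd Nat.prime_three).2 hS).symm

/-! ### numerics -/

theorem cond_three (f : ℕ) (hf : 1 ≤ f) : (3 ^ f + 1) ^ 7 ≤ 3 ^ (f * 9) := by
  rw [pow_mul]
  rcases Nat.eq_or_lt_of_le hf with rfl | h
  · norm_num
  · have hx : 9 ≤ 3 ^ f := by
      calc 9 = 3 ^ 2 := by norm_num
        _ ≤ 3 ^ f := Nat.pow_le_pow_right (by norm_num) h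
    generalize 3 ^ f = x at hx
    have h1 : (9 * (x + 1)) ^ 7 ≤ (10 * x) ^ 7 := Nat.pow_le_pow_left (by omega) 7
    have h2 : 9 ^ 7 * (x + 1) ^ 7 ≤ 10 ^ 7 * x ^ 7 := by rw [← mul_pow, ← mul_pow]; exact h1
    have h3 : 81 * x ^ 7 ≤ x ^ 9 := by
      have : x ^ 9 = x ^ 2 * x ^ 7 := by ring
      rw [this]
      exact Nat.mul_le_mul_right _ (by nlinarith)
    have h4 : 4782969 * (x + 1) ^ 7 ≤ 10000000 * x ^ 7 := by
      have e1 : 9 ^ 7 = 4782969 := by norm_num
      have e2 : 10 ^ 7 = 10000000 := by norm_num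
      rw [e1, e2] at h2
      exact h2
    clear h1 h2
    generalize (x + 1) ^ 7 = a at h4 ⊢
    generalize x ^ 7 = b at h4 h3
    generalize x ^ 9 = c at h3 ⊢
    omega

theorem card_G2_ge (hq : 2 ≤ Fintype.card F) : Fintype.card F ^ 14 ≤ 2 * Nat.card ↥(chevG2.group F) := by
  rw [S1059.result (F := F) rfl]
  generalize Fintype.card F = q at hq
  have h1 : q ^ 2 ≤ q ^ 6 := Nat.pow_le_pow_right (by omega) (by norm_num)
  have h2 : 4 ≤ q ^ 2 := by nlinarith
  have h3 : 64 ≤ q ^ 6 := by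
    calc 64 = 2 ^ 6 := by norm_num
      _ ≤ q ^ 6 := Nat.pow_le_pow_left hq 6
  obtain ⟨a, ha⟩ : ∃ a, q ^ 2 = a + 1 := ⟨q ^ 2 - 1, by omega⟩
  obtain ⟨b, hb⟩ : ∃ b, q ^ 6 = b + 1 := ⟨q ^ 6 - 1, by omega⟩
  have e : q ^ 14 = q ^ 6 * ((a + 1) * (b + 1)) := by rw [← ha, ← hb]; ring
  rw [e, ha, hb, Nat.add_sub_cancel, Nat.add_sub_cancel]
  have h4 : (a + 1) * (b + 1) ≤ 2 * (a * b) := by nlinarith
  calc (b + 1) * ((a + 1) * (b + 1)) ≤ (b + 1) * (2 * (a * b)) := Nat.mul_le_mul_left _ h4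
    _ = 2 * ((b + 1) * a * b) := by ring

/-! ### the row -/

/-- **`q = 3`** -/
theorem g2_three (hF : Fintype.card F = 3) : Ab3 ↥(chevG2.group F) := by
  have i3 : Fact (Nat.Prime 3) := ⟨Nat.prime_three⟩
  have hchar := char_three hF
  have hL : BpLieP.Big.LocChar 3 ↥(chevG2.group F) :=
    locChar_exc ⟨F, inferInstance, inferInstance, hchar, Or.inl ⟨by omega, ⟨MulEquiv.refl _⟩⟩⟩
  have hfin : Finite ↥(chevG2.group F) := Nat.finite_of_card_ne_zero (by rw [card_G2_three hF]; norm_num)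
  intro A hA
  rw [card_G2_three hF]
  have hA' : ∀ x ∈ A, ∀ y ∈ A, x * y = y * x := fun x hx y hy =>
    congrArg Subtype.val (hA.is_comm.comm ⟨x, hx⟩ ⟨y, hy⟩)
  by_cases h3 : 3 ∣ Nat.card A
  · obtain ⟨B, S, hBc, hBp, hSA, hSp, h⟩ := Mix.mix hL hA' h3 (u := 7) (v := 9) (by norm_num)
      (fun f hf => cond_three f hf)
    have hB : Nat.card B ≤ 81 := by
      have h1 := G2Pb.pbG2 F 3 (by omega) B ⟨⟨fun x y => Subtype.ext (hBc x x.2 y y.2)⟩⟩ hBp
      rw [if_pos rfl, hF] at h1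
      exact h1
    have hS : Nat.card S ≤ 16 := by
      obtain ⟨x, hx⟩ := exists_prime_orderOf_dvd_card' 3 h3
      have hx1 : (x : ↥(chevG2.group F)) ≠ 1 := by
        intro h1
        have h2 : x = 1 := Subtype.ext h1
        rw [h2, orderOf_one] at hx
        omega
      refine Nat.le_of_dvd (by norm_num) (card_dvd_sixteen hF (S := S) (K := zpowers (x : ↥(chevG2.group F))) hSp
        ?_ ?_ ?_)
      · refine IsPGroup.of_card (n := 1) ?_
        rw [Nat.card_zpowers, Subgroup.orderOf_coe, hx, pow_one]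
      · rw [Ne, zpowers_eq_bot]
        exact hx1
      · refine le_trans ?_ (Subgroup.centralizer_le_normalizer _)
        intro s hs
        rw [mem_centralizer_iff]
        rintro y ⟨k, rfl⟩
        exact hA' _ (zpow_mem x.2 k) _ (hSA hs)
    have h4 : Nat.card A ^ 9 ≤ 81 ^ 9 * 16 ^ 2 :=
      h.trans (Nat.mul_le_mul (Nat.pow_le_pow_left hB 9) (Nat.pow_le_pow_left hS 2))
    exact key0 h4 (by norm_num)
  · have h1 := sb_G2 H197.Ab.X3.x3 F 3 A hA h3
    have h2 : cop 3 12 = 4 := by decide +kernel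
    rw [h2, hF] at h1
    have h4 : Nat.card A ^ 1 ≤ 64 := by rw [pow_one]; exact h1.trans (by norm_num)
    exact key0 h4 (by norm_num)

/-- **The row `G₂(q)`, `q ≥ 3`.** -/
theorem g2 (F : Type) [Field F] [Fintype F] (hF3 : 3 ≤ Fintype.card F) : Ab3 ↥(chevG2.group F) := by
  by_cases hF : Fintype.card F = 3
  · exact g2_three hF
  obtain ⟨p, hchar⟩ := CharP.exists F
  have hp : Fact p.Prime := ⟨CharP.char_is_prime F p⟩
  have hL : BpLieP.Big.LocChar p ↥(chevG2.group F) :=
    locChar_exc ⟨F, inferInstance, inferInstance, hchar, Or.inl ⟨hF3, ⟨MulEquiv.refl _⟩⟩⟩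
  obtain ⟨n, -, hn⟩ := FiniteField.card F p
  have hG := card_G2_ge (F := F) (by omega)
  have hGpos : Nat.card ↥(chevG2.group F) ≠ 0 := by
    intro h0
    rw [h0, mul_zero] at hG
    have : 0 < Fintype.card F ^ 14 := pow_pos (by omega) _
    omega
  have hfin : Finite ↥(chevG2.group F) := Nat.finite_of_card_ne_zero hGpos
  have hP := G2Pb.pbG2 F p hF3
  have hS := sb_G2 H197.Ab.X3.x3 F p
  have hpp : p.Prime := hp.out
  have h4 : 4 ≤ Fintype.card F := by omega
  by_cases hp2 : p = 2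
  · subst hp2
    have hc : cop 2 12 = 3 := by decide +kernel
    rw [if_neg (by norm_num)] at hP
    rw [hc] at hS
    intro A hA
    rcases cases_two x1 hL hP hS hA with h | h
    · have h' : Nat.card A ^ 1 ≤ Fintype.card F ^ 0 * (3 * (Fintype.card F + 1) ^ 2) ^ 1 := by
        rw [pow_zero, one_mul]; exact h
      exact key (m := 4) (by norm_num) h4 hG h' (by norm_num) (by norm_num)
    · rw [← pow_mul] at h
      exact key (m := 4) (by norm_num) h4 hG h (by norm_num) (by norm_num)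
  by_cases hp3 : p = 3
  · subst hp3
    have hc : cop 3 12 = 4 := by decide +kernel
    rw [if_pos rfl] at hP
    rw [hc] at hS
    intro A hA
    have h9 : Fintype.card F = 9 ∨ 27 ≤ Fintype.card F := by
      have h5 : (n : ℕ) = 1 ∨ (n : ℕ) = 2 ∨ 3 ≤ (n : ℕ) := by have := n.pos; omega
      rcases h5 with h5 | h5 | h5
      · rw [h5] at hn
        exact absurd (by rw [hn]; norm_num) hF
      · left; rw [hn, h5]; norm_num
      · right
        rw [hn]
        calc 27 = 3 ^ 3 := by norm_num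
          _ ≤ 3 ^ (n : ℕ) := Nat.pow_le_pow_right (by norm_num) h5
    by_cases h : 3 ∣ Nat.card A
    · have h1 := x1 _ 3 hL 7 9 (by norm_num) (fun f hf => cond_three f hf) _ _ hP hS A hA h
      rw [← pow_mul] at h1
      rcases h9 with h9 | h9
      · rw [S1059.result h9]
        rw [h9] at h1
        exact key0 h1 (by norm_num)
      · exact key (m := 27) (by norm_num) h9 hG h1 (by norm_num) (by norm_num)
    · have h' : Nat.card A ^ 1 ≤ Fintype.card F ^ 0 * (4 * (Fintype.card F + 1) ^ 2) ^ 1 := by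
        rw [pow_zero, one_mul, pow_one, pow_one]; exact hS A hA h
      exact key (m := 4) (by norm_num) h4 hG h' (by norm_num) (by norm_num)
  · rw [if_neg hp3] at hP
    have hp5 : 5 ≤ p := by
      have h5 := hpp.two_le
      by_contra h6
      have h7 : p = 4 := by omega
      rw [h7] at hpp
      exact absurd hpp (by norm_num)
    have hq5 : 5 ≤ Fintype.card F := by
      rw [hn]
      calc 5 ≤ p := hp5
        _ = p ^ 1 := (pow_one p).symm
        _ ≤ p ^ (n : ℕ) := Nat.pow_le_pow_right (by omega) n.pos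
    have hS2 : SB p ↥(chevG2.group F) (12 * (Fintype.card F + 1) ^ 2) := fun B hB hpB =>
      (hS B hB hpB).trans (Nat.mul_le_mul_right _ (cop_le _ _))
    intro A hA
    rcases cases_odd x1 hL (by omega) hP hS2 hA with h | h
    · have h' : Nat.card A ^ 1 ≤ Fintype.card F ^ 0 * (12 * (Fintype.card F + 1) ^ 2) ^ 1 := by
        rw [pow_zero, one_mul]; exact h
      exact key (m := 5) (by norm_num) hq5 hG h' (by norm_num) (by norm_num)
    · rw [← pow_mul] at h
      exact key (m := 5) (by norm_num) hq5 hG h (by norm_num) (by norm_num)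

/-- the row of S2501 -/
theorem ab3_G2 {G : Type*} [Group G] (h : Lie.IsoChevG2 G) : Ab3 G := by
  obtain ⟨F, _, _, h3, ⟨e⟩⟩ := h
  exact (g2 F h3).congr e.symm

end Cfsg.Agent.H316.Ab.G2Row
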